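import Mathlib
import Cfsg.Prelude.Def_Local
import Cfsg.Agent.PCore.PSolvable
import Cfsg.Agent.S0071

/-!
Products of classes of `p`-elements and `q`-elements.
-/

set_option autoImplicit false
set_option linter.style.haveILetI false
set_option linter.unusedSectionVars false

namespace CfsgLib.SmallCof

open Cfsg

universe u

variable {G : Type u} [Group G]

/-- Prime power elements lift to prime power elements. -/
theorem exists_primePow_lift [Finite G] {H : Type*} [Group H] (f : G →* H) (hf : Function.Surjective f) {p : ℕ}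
    (hp : p.Prime) {x : H} {a : ℕ} (hx : orderOf x = p ^ a) : ∃ g : G, (∃ k, orderOf g = p ^ k) ∧ f g = x := by
  obtain ⟨g, rfl⟩ := hf x
  obtain ⟨v, m, hm, hv⟩ := Nat.exists_eq_pow_mul_and_not_dvd (orderOf_pos g).ne' p hp.ne_one
  obtain ⟨J, h1, h2⟩ := Nat.chineseRemainder (((hp.coprime_iff_not_dvd.2 hm)).pow_left v) 1 0
  refine ⟨g ^ J, ?_, ?_⟩
  · have h : (g ^ J) ^ p ^ v = 1 := by
      rw [← pow_mul, ← orderOf_dvd_iff_pow_eq_one, hv, mul_comm J]
      exact mul_dvd_mul_left _ (Nat.modEq_zero_iff_dvd.1 h2)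
    obtain ⟨k, -, hk⟩ := (Nat.dvd_prime_pow hp).1 (orderOf_dvd_of_pow_eq_one h)
    exact ⟨k, hk⟩
  · rw [map_pow]
    conv_rhs => rw [← pow_one (f g)]
    refine pow_eq_pow_iff_modEq.2 (h1.of_dvd ?_)
    have h := orderOf_map_dvd f g
    rw [hx, hv] at h
    rw [hx]
    exact (((hp.coprime_iff_not_dvd.2 hm)).pow_left a).dvd_of_dvd_mul_right h

/-- Some element of prime power order is outside a subgroup. -/
theorem exists_primePow_not_mem [Finite G] (C : Subgroup G) : ∀ {g : G}, g ∉ C →
    ∃ n : ℕ, ∃ q b : ℕ, q.Prime ∧ q ∣ orderOf g ∧ g ^ n ∉ C ∧ orderOf (g ^ n) = q ^ b := by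
  intro g
  induction hN : orderOf g using Nat.strong_induction_on generalizing g with
  | _ N ih =>
    subst hN
    intro hg
    have h1 : orderOf g ≠ 1 := fun e => hg (by rw [orderOf_eq_one_iff.1 e]; exact C.one_mem)
    have hq := Nat.minFac_prime h1
    obtain ⟨v, m, hm, hv⟩ := Nat.exists_eq_pow_mul_and_not_dvd (orderOf_pos g).ne' _ hq.ne_one
    rcases eq_or_ne m 1 with rfl | hm1
    · exact ⟨1, _, v, hq, Nat.minFac_dvd _, by rwa [pow_one], by rw [pow_one]; simpa using hv⟩
    set q := (orderOf g).minFac with hqdef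
    have hcop : (q ^ v).Coprime m := (hq.coprime_iff_not_dvd.2 hm).pow_left v
    have hsplit : g ^ q ^ v ∉ C ∨ g ^ m ∉ C := by
      by_contra h
      push Not at h
      refine hg ?_
      have e : g = (g ^ (q ^ v)) ^ Nat.gcdA (q ^ v) m * (g ^ m) ^ Nat.gcdB (q ^ v) m := by
        rw [← zpow_natCast g (q ^ v), ← zpow_natCast g m, ← zpow_mul, ← zpow_mul, ← zpow_add, ← Nat.gcd_eq_gcd_ab,
          hcop.gcd_eq_one, Nat.cast_one, zpow_one]
      rw [e]
      exact C.mul_mem (C.zpow_mem h.1 _) (C.zpow_mem h.2 _)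
    rcases hsplit with h | h
    · have ho : orderOf (g ^ q ^ v) = m := by
        rw [orderOf_pow_of_dvd (pow_ne_zero _ hq.ne_zero) (hv ▸ dvd_mul_right _ _), hv,
          Nat.mul_div_cancel_left _ (pow_pos hq.pos v)]
      have hv0 : v ≠ 0 := fun e => by
        rw [e, pow_zero, one_mul] at hv
        exact hm (hv ▸ Nat.minFac_dvd _)
      have hlt : m < orderOf g := by
        rw [hv]
        exact lt_mul_of_one_lt_left (Nat.pos_of_ne_zero fun e => hm (by rw [e]; exact dvd_zero _)) (Nat.one_lt_pow hv0 hq.one_lt)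
      obtain ⟨n, r, b, hr, hrd, hn, hb⟩ := ih m hlt ho h
      refine ⟨q ^ v * n, r, b, hr, hrd.trans ⟨q ^ v, by rw [hv, mul_comm]⟩, ?_, ?_⟩
      · rwa [pow_mul]
      · rwa [pow_mul]
    · refine ⟨m, q, v, hq, Nat.minFac_dvd _, h, ?_⟩
      rw [orderOf_pow_of_dvd (fun e => hm (by rw [e]; exact dvd_zero _)) (hv ▸ dvd_mul_left _ _), hv,
        Nat.mul_div_cancel _ (Nat.pos_of_ne_zero fun e => hm (by rw [e]; exact dvd_zero _))]

theorem isPSolvable_of_class_products [Finite G] (p : ℕ) [Fact p.Prime]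
    (h : ∀ x y : G, (∃ a : ℕ, orderOf x = p ^ a) → (∃ q b : ℕ, q.Prime ∧ q ≠ p ∧ orderOf y = q ^ b) →
      ∀ z : G, IsConj (x * y) z ↔ ∃ a b : G, z = a * x * a⁻¹ * (b * y * b⁻¹)) : Cfsg.IsPSolvable p G := by
  classical
  induction hn : Nat.card G using Nat.strong_induction_on generalizing G with
  | _ n ih =>
    subst hn
    have hp : p.Prime := Fact.out
    have hquot : ∀ (N : Subgroup G) [N.Normal], N ≠ ⊥ → Cfsg.IsPSolvable p (G ⧸ N) := by
      intro N _ hN
      have hs := QuotientGroup.mk'_surjective N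
      refine ih _ ?_ (fun x y hx hy z => ⟨fun hz => ?_, ?_⟩) rfl
      · rw [Subgroup.card_eq_card_quotient_mul_card_subgroup N]
        exact lt_mul_of_one_lt_right Nat.card_pos ((Subgroup.one_lt_card_iff_ne_bot N).2 hN)
      · obtain ⟨c, rfl⟩ := isConj_iff.1 hz
        exact ⟨c, c, by group⟩
      · rintro ⟨a, b, rfl⟩
        obtain ⟨a', rfl⟩ := hs a
        obtain ⟨b', rfl⟩ := hs b
        obtain ⟨i, hi⟩ := hx
        obtain ⟨q, j, hq, hqp, hj⟩ := hy
        obtain ⟨x', ⟨i', hi'⟩, rfl⟩ := exists_primePow_lift _ hs hp hi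
        obtain ⟨y', ⟨j', hj'⟩, rfl⟩ := exists_primePow_lift _ hs hq hj
        simp only [← map_inv, ← map_mul]
        exact MonoidHom.map_isConj _ ((h x' y' ⟨i', hi'⟩ ⟨q, j', hq, hqp, hj'⟩ _).2 ⟨a', b', rfl⟩)
    by_cases hpc : Cfsg.pCore p G = ⊥
    swap
    · haveI := Cfsg.pCore_normal p G
      exact PCore.isPSolvable_of_normal _ (PCore.isPSolvable_of_isPGroup (PCore.isPGroup_pCore p G)) (hquot _ hpc)
    by_cases hpp : Cfsg.pPrimeCore p G = ⊥
    swap
    · haveI := Cfsg.pPrimeCore_normal p G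
      exact PCore.isPSolvable_of_normal _ (PCore.isPSolvable_of_coprime (PCore.pPrimeCore_coprime p G)) (hquot _ hpp)
    rcases subsingleton_or_nontrivial G with hG | hG
    · exact PCore.isPSolvable_of_coprime (by rw [Nat.card_unique]; exact Nat.coprime_one_left p)
    exfalso
    obtain ⟨k, ⟨N, hN, hN0, rfl⟩, hmin⟩ : ∃ k, (∃ N : Subgroup G, N.Normal ∧ N ≠ ⊥ ∧ Nat.card N = k) ∧
        ∀ M : Subgroup G, M.Normal → M ≠ ⊥ → k ≤ Nat.card M := by
      have hex : ∃ k, ∃ N : Subgroup G, N.Normal ∧ N ≠ ⊥ ∧ Nat.card N = k :=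
        ⟨_, ⊤, inferInstance, top_ne_bot, rfl⟩
      exact ⟨Nat.find hex, Nat.find_spec hex, fun M hM hM0 => Nat.find_min' hex ⟨M, hM, hM0, rfl⟩⟩
    obtain ⟨P⟩ : Nonempty (Sylow p N) := inferInstance
    by_cases hcompl : ∃ K : Subgroup N, K.Normal ∧ K.IsComplement' (P : Subgroup N)
    · obtain ⟨K, hK, hKP⟩ := hcompl
      have hKc : (Nat.card K).Coprime p := by
        rw [← hKP.index_eq_card]
        exact PCore.coprime_of_not_dvd P.not_dvd_index
      have h1 : K.map N.subtype ≤ ⊥ := by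
        have := (Subgroup.map_mono (f := N.subtype) (PCore.le_pPrimeCore hK hKc)).trans_eq (PCore.map_pPrimeCore_normal N)
        rwa [hpp, bot_inf_eq] at this
      rw [le_bot_iff, Subgroup.map_eq_bot_iff_of_injective _ Subtype.val_injective] at h1
      rw [h1, Subgroup.isComplement'_bot_left] at hKP
      have hNp : IsPGroup p N := fun g => by
        obtain ⟨k, hk⟩ := P.2 ⟨g, hKP ▸ Subgroup.mem_top g⟩
        exact ⟨k, congrArg Subtype.val hk⟩
      exact hN0 (le_bot_iff.1 (hpc ▸ PCore.le_pCore hN hNp))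
    · rw [Cfsg.Agent.S0071.result P] at hcompl
      push Not at hcompl
      obtain ⟨Q, hQP, g, hg, hgp, hgC⟩ := hcompl
      obtain ⟨e, q, b, hq, hqd, heC, heo⟩ := exists_primePow_not_mem _ hgC
      have hqp : q ≠ p := fun e => hq.ne_one (Nat.eq_one_of_dvd_coprimes hgp hqd (e ▸ dvd_rfl))
      set y := g ^ e with hy
      have hyN : y ∈ Subgroup.normalizer (Q : Set N) := Subgroup.pow_mem _ hg e
      rw [Subgroup.mem_centralizer_iff] at heC
      push Not at heC
      obtain ⟨r, hr, hry⟩ := heC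
      set x := r⁻¹ * (y * r * y⁻¹) with hxdef
      have hxQ : x ∈ Q := Q.mul_mem (Q.inv_mem hr) ((Subgroup.mem_normalizer_iff.1 hyN r).1 hr)
      have hx1 : x ≠ 1 := fun e => hry (by
        rw [hxdef, inv_mul_eq_one, eq_mul_inv_iff_mul_eq] at e
        exact e)
      obtain ⟨a, ha⟩ := (IsPGroup.iff_orderOf.1 (P.2.to_le hQP)) ⟨x, hxQ⟩
      have hxo : orderOf (x : G) = p ^ a := by
        rw [Subgroup.orderOf_coe]
        rwa [← Subgroup.orderOf_coe] at ha
      have hyo : orderOf (y : G) = q ^ b := by rw [Subgroup.orderOf_coe]; exact heo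
      have hxy : IsConj ((x : G) * y) (y : G) := isConj_iff.2 ⟨(r : G), by
        rw [hxdef]; push_cast; group⟩
      -- translations preserving the class
      let S : Submonoid G :=
        { carrier := {n | ∀ z, IsConj (y : G) z → IsConj (y : G) (n * z)}
          one_mem' := fun z hz => by rwa [one_mul]
          mul_mem' := fun hu hv z hz => by rw [mul_assoc]; exact hu _ (hv z hz) }
      have hgen : ∀ c : G, c * (x : G) * c⁻¹ ∈ S := by
        intro c z hz
        obtain ⟨d, rfl⟩ := isConj_iff.1 hz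
        exact hxy.symm.trans ((h _ _ ⟨a, hxo⟩ ⟨q, b, hq, hqp, hyo⟩ _).2 ⟨c, d, rfl⟩)
      let T : Subgroup G :=
        { toSubmonoid := S
          inv_mem' := fun {u} hu => by
            rw [← mem_powers_iff_mem_zpowers.2 (Subgroup.inv_mem _ (Subgroup.mem_zpowers u)) |>.choose_spec]
            exact S.pow_mem hu _ }
      have hle : Subgroup.normalClosure {(x : G)} ≤ T := by
        rw [Subgroup.normalClosure, Subgroup.closure_le]
        intro v hv
        obtain ⟨w, hw, hwv⟩ := Group.mem_conjugatesOfSet_iff.1 hv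
        rw [Set.mem_singleton_iff] at hw
        subst hw
        obtain ⟨c, rfl⟩ := isConj_iff.1 hwv
        exact hgen c
      have hcl : Subgroup.normalClosure {(x : G)} = N := by
        refine Subgroup.eq_of_le_of_card_ge (Subgroup.normalClosure_le_normal (by simpa using x.2))
          (hmin _ Subgroup.normalClosure_normal fun e => hx1 ?_)
        have := Subgroup.subset_normalClosure (Set.mem_singleton (x : G))
        rw [e] at this
        exact Subtype.ext (Subgroup.mem_bot.1 this)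
      have hmem : (y : G)⁻¹ ∈ T := hle (by rw [hcl]; exact N.inv_mem y.2)
      have h1 := hmem (y : G) (IsConj.refl _)
      rw [inv_mul_cancel, isConj_comm, isConj_one_right] at h1
      exact hry (by rw [OneMemClass.coe_eq_one.1 h1]; simp)

end CfsgLib.SmallCof
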