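import Mathlib

/-!
Arithmetic on numbers with two odd prime divisors, one of them three.
-/

set_option autoImplicit false

namespace CfsgLib.SmallCof

/-- Only the primes `3` and `r` divide `n`. -/
def Supp (r n : ℕ) : Prop := ∀ s : ℕ, s.Prime → s ∣ n → s = 3 ∨ s = r

theorem Supp.dvd {r n : ℕ} (h : Supp r n) (h1 : 1 < n) (h3 : n % 3 ≠ 0) : r ∣ n := by
  obtain ⟨s, hs, hd⟩ := Nat.exists_prime_and_dvd (n := n) (by omega)
  rcases h s hs hd with rfl | rfl
  · exact absurd (Nat.mod_eq_zero_of_dvd hd) h3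
  · exact hd

theorem not_both {r m n : ℕ} (hr : 5 ≤ r) {c : ℤ} (a b : ℤ) (hm : r ∣ m) (hn : r ∣ n)
    (hc : a * m + b * n = c) (h1 : 1 ≤ c) (h3 : c ≤ 3) : False := by
  have h : (r : ℤ) ∣ c := hc ▸ dvd_add (Dvd.dvd.mul_left (Int.natCast_dvd_natCast.2 hm) a)
    (Dvd.dvd.mul_left (Int.natCast_dvd_natCast.2 hn) b)
  have := Int.le_of_dvd (by omega) h
  omega

/-- The degrees in the principal block are `5`, `3`, `3`. -/
theorem degrees_five {r U W : ℕ} (hr : 5 ≤ r) (hU : 1 ≤ U) (hW : 1 ≤ W)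
    (h1 : Supp r (2 * U + 1)) (h2 : Supp r U) (h3 : Supp r (2 * W + 1)) (h4 : Supp r W)
    (h5 : Supp r (2 * U + 2 * W + 1)) (h6 : Supp r (U + W + 1)) : U = 1 ∧ W = 1 := by
  have key : ∀ U W : ℕ, 1 ≤ U → 1 ≤ W → Supp r (2 * U + 1) → Supp r U → Supp r (2 * W + 1) → Supp r W →
      Supp r (2 * U + 2 * W + 1) → Supp r (U + W + 1) → U % 3 = 0 ∨ U = 1 → U = 1 ∧ W = 1 := by
    intro U W hU hW h1 h2 h3 h4 h5 h6 hor
    by_contra hcon
    have hW2 : U = 1 → 1 < W := fun e => by omega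
    rcases hor with hU0 | rfl
    · have hr1 := h1.dvd (by omega) (by omega)
      by_cases hW1 : W = 1
      · subst hW1
        exact not_both hr 2 (-1) (h6.dvd (by omega) (by omega)) hr1 (c := 3) (by push_cast; ring) (by omega) (by omega)
      by_cases hW0 : W % 3 = 0
      · exact not_both hr (-1) 2 (h5.dvd (by omega) (by omega)) (h6.dvd (by omega) (by omega)) (c := 1) (by push_cast; ring)
          (by omega) (by omega)
      by_cases hw0 : (2 * W + 1) % 3 = 0
      · obtain ⟨k, hk⟩ := h6.dvd (by omega) (by omega)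
        obtain ⟨l, hl⟩ := hr1
        obtain ⟨j, hj⟩ := h4.dvd (by omega) (by omega)
        refine not_both hr (m := r) (n := r) (2 * k - l - 2 * j) 0 dvd_rfl dvd_rfl (c := 1) ?_ (by omega) (by omega)
        have e1 : ((U + W + 1 : ℕ) : ℤ) = ((r * k : ℕ) : ℤ) := congrArg _ hk
        have e2 : ((2 * U + 1 : ℕ) : ℤ) = ((r * l : ℕ) : ℤ) := congrArg _ hl
        have e3 : ((W : ℕ) : ℤ) = ((r * j : ℕ) : ℤ) := congrArg _ hj
        push_cast at e1 e2 e3
        linear_combination -2 * e1 + e2 + 2 * e3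
      · exact not_both hr 1 (-2) (h3.dvd (by omega) hw0) (h4.dvd (by omega) hW0) (c := 1) (by push_cast; ring)
          (by omega) (by omega)
    · have hw := hW2 rfl
      by_cases hW0 : W % 3 = 0
      · exact not_both hr 2 (-1) (h6.dvd (by omega) (by omega)) (h3.dvd (by omega) (by omega)) (c := 3)
          (by push_cast; ring) (by omega) (by omega)
      by_cases hw0 : (2 * W + 1) % 3 = 0
      · exact not_both hr 1 (-2) (h5.dvd (by omega) (by omega)) (h4.dvd (by omega) hW0) (c := 3) (by push_cast; ring)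
          (by omega) (by omega)
      · exact not_both hr 1 (-2) (h3.dvd (by omega) hw0) (h4.dvd (by omega) hW0) (c := 1) (by push_cast; ring)
          (by omega) (by omega)
  by_cases hU0 : U % 3 = 0 ∨ U = 1
  · exact key U W hU hW h1 h2 h3 h4 h5 h6 hU0
  by_cases hW0 : W % 3 = 0 ∨ W = 1
  · have h5' : Supp r (2 * W + 2 * U + 1) := by rwa [Nat.add_comm (2 * W) (2 * U)]
    have h6' : Supp r (W + U + 1) := by rwa [Nat.add_comm W U]
    exact (key W U hW hU h3 h4 h1 h2 h5' h6' hW0).symm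
  exfalso
  push Not at hU0 hW0
  by_cases hu : (2 * U + 1) % 3 = 0
  · by_cases hw : (2 * W + 1) % 3 = 0
    · obtain ⟨k, hk⟩ := h5.dvd (by omega) (by omega)
      obtain ⟨l, hl⟩ := h2.dvd (by omega) hU0.1
      obtain ⟨j, hj⟩ := h4.dvd (by omega) hW0.1
      refine not_both hr (m := r) (n := r) (k - 2 * l - 2 * j) 0 dvd_rfl dvd_rfl (c := 1) ?_ (by omega) (by omega)
      have e1 : ((2 * U + 2 * W + 1 : ℕ) : ℤ) = ((r * k : ℕ) : ℤ) := congrArg _ hk
      have e2 : ((U : ℕ) : ℤ) = ((r * l : ℕ) : ℤ) := congrArg _ hl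
      have e3 : ((W : ℕ) : ℤ) = ((r * j : ℕ) : ℤ) := congrArg _ hj
      push_cast at e1 e2 e3
      linear_combination -e1 + 2 * e2 + 2 * e3
    · exact not_both hr 1 (-2) (h3.dvd (by omega) hw) (h4.dvd (by omega) hW0.1) (c := 1) (by push_cast; ring)
        (by omega) (by omega)
  · exact not_both hr 1 (-2) (h1.dvd (by omega) hu) (h2.dvd (by omega) hU0.1) (c := 1) (by push_cast; ring)
      (by omega) (by omega)

/-- The other sign pattern forces `q = 3`. -/
theorem q_three {r q : ℕ} (hr : 5 ≤ r) (hq : q % 8 = 3) (h1 : Supp r q) (h2 : Supp r ((q - 1) / 2))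
    (h3 : Supp r ((q + 1) / 4)) : q = 3 := by
  by_contra hne
  obtain ⟨k, rfl⟩ : ∃ k, q = 8 * k + 3 := ⟨q / 8, by omega⟩
  rw [show (8 * k + 3 - 1) / 2 = 4 * k + 1 by omega] at h2
  rw [show (8 * k + 3 + 1) / 4 = 2 * k + 1 by omega] at h3
  by_cases hq0 : (8 * k + 3) % 3 = 0
  · exact not_both hr (-1) 2 (h2.dvd (by omega) (by omega)) (h3.dvd (by omega) (by omega)) (c := 1)
      (by push_cast; ring) (by omega) (by omega)
  by_cases hb : (4 * k + 1) % 3 = 0
  · exact not_both hr (-1) 4 (h1.dvd (by omega) hq0) (h3.dvd (by omega) (by omega)) (c := 1) (by push_cast; ring)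
      (by omega) (by omega)
  · exact not_both hr 1 (-2) (h1.dvd (by omega) hq0) (h2.dvd (by omega) hb) (c := 1) (by push_cast; ring)
      (by omega) (by omega)

end CfsgLib.SmallCof
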